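import Cfsg.Agent.H341.ThreeList

/-!
# S4247, row PSp, piece X (helper491): `PSp_2k(q)`, `k ≥ 3`, is not `PSL₃(2)` or `PSL₅(2)`
-/

set_option autoImplicit false

namespace Cfsg.Agent.H491.DP

open Cfsg Matrix

theorem card_psl3 : Nat.card (Matrix.ProjectiveSpecialLinearGroup (Fin 3) (ZMod 2)) = 168 := by
  have : Fact (Nat.Prime 2) := ⟨by norm_num⟩
  have h := Cfsg.Agent.H341.ThreeList.card_psl (F := ZMod 2) (n := 3) (by norm_num)
  rw [ZMod.card, show Nat.gcd 3 (2 - 1) = 1 by norm_num, one_mul] at h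
  rw [h]
  norm_num [Finset.prod_range_succ]

theorem card_psl5 : Nat.card (Matrix.ProjectiveSpecialLinearGroup (Fin 5) (ZMod 2)) = 9999360 := by
  have : Fact (Nat.Prime 2) := ⟨by norm_num⟩
  have h := Cfsg.Agent.H341.ThreeList.card_psl (F := ZMod 2) (n := 5) (by norm_num)
  rw [ZMod.card, show Nat.gcd 5 (2 - 1) = 1 by norm_num, one_mul] at h
  rw [h]
  norm_num [Finset.prod_range_succ]

theorem key {F : Type} [Field F] [Fintype F] {k : ℕ} (hk : 3 ≤ k) {N : ℕ} (hN : N = 168 ∨ N = 9999360)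
    (h : Nat.card (PSp k F) = N) : False := by
  have hc := Cfsg.Agent.H341.ThreeList.card_psp (F := F) (show 1 ≤ k by omega)
  have hq : 1 < Fintype.card F := Fintype.one_lt_card
  generalize Fintype.card F = q at hc hq
  rw [h] at hc
  have hkk : 9 ≤ k ^ 2 := by nlinarith
  have hg : Nat.gcd 2 (q - 1) ∣ 2 := Nat.gcd_dvd_left _ _
  have h9 : q ^ 9 ∣ Nat.gcd 2 (q - 1) * N := by
    rw [hc]
    exact Dvd.dvd.mul_right (pow_dvd_pow _ hkk) _
  have h10 : q ^ 9 ∣ 2 * N := dvd_trans h9 (mul_dvd_mul_right hg N)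
  have h11 : q ^ 9 ∣ 2 * 9999360 := by
    rcases hN with rfl | rfl
    · exfalso
      have h12 : q ^ 9 ≤ 2 * 168 := Nat.le_of_dvd (by norm_num) h10
      have h13 : 2 ^ 9 ≤ q ^ 9 := Nat.pow_le_pow_left hq 9
      norm_num at h13
      omega
    · exact h10
  have h12 : q ^ 9 ≤ 2 * 9999360 := Nat.le_of_dvd (by norm_num) h11
  have hq7 : q < 7 := by
    by_contra hh
    have h13 : 7 ^ 9 ≤ q ^ 9 := Nat.pow_le_pow_left (by omega) 9
    norm_num at h13
    omega
  have hq2 : q = 2 := by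
    interval_cases q <;> first | rfl | (exfalso; norm_num at h11)
  subst hq2
  rcases hN with rfl | rfl
  · have h13 : 2 ^ 9 ≤ Nat.gcd 2 (2 - 1) * 168 := Nat.le_of_dvd (by norm_num) h9
    norm_num at h13
  · have h14 : 2 ^ k ^ 2 ∣ 9999360 := by
      have : Nat.gcd 2 (2 - 1) * 9999360 = 9999360 := by norm_num
      rw [this] at hc
      rw [hc]
      exact dvd_mul_right _ _
    have hk3 : k = 3 := by
      by_contra hne
      have h15 : 16 ≤ k ^ 2 := by nlinarith [show 4 ≤ k by omega]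
      have h16 : 2 ^ 16 ∣ 9999360 := dvd_trans (pow_dvd_pow 2 h15) h14
      norm_num at h16
    subst hk3
    norm_num [Finset.prod_range_succ] at hc

/-- Task X -/
theorem psp_ne {F : Type} [Field F] [Fintype F] {k : ℕ} (hk : 3 ≤ k) :
    ¬ Nonempty (PSp k F ≃* Matrix.ProjectiveSpecialLinearGroup (Fin 3) (ZMod 2)) ∧
      ¬ Nonempty (PSp k F ≃* Matrix.ProjectiveSpecialLinearGroup (Fin 5) (ZMod 2)) := by
  constructor
  · rintro ⟨e⟩
    exact key hk (Or.inl rfl) ((Nat.card_congr e.toEquiv).trans card_psl3)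
  · rintro ⟨e⟩
    exact key hk (Or.inr rfl) ((Nat.card_congr e.toEquiv).trans card_psl5)

end Cfsg.Agent.H491.DP
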