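import Mathlib

/-!
# S4247, row PSp, piece N: the numbers (helper491)
-/

set_option autoImplicit false

namespace Cfsg.Agent.H491.DP

theorem geo {q n : ℕ} (hq : 2 ≤ q) (hn : 1 ≤ n) : q ^ (2 * n - 1) < (q ^ (2 * n) - 1) / (q - 1) := by
  obtain ⟨a, rfl⟩ : ∃ a, q = a + 1 := ⟨q - 1, by omega⟩
  obtain ⟨b, rfl⟩ : ∃ b, n = b + 1 := ⟨n - 1, by omega⟩
  rw [show 2 * (b + 1) - 1 = 2 * b + 1 by omega, show 2 * (b + 1) = 2 * b + 1 + 1 by ring, Nat.add_sub_cancel]
  rw [← Nat.succ_le_iff, Nat.le_div_iff_mul_le (by omega)]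
  have h1 : a + 1 ≤ (a + 1) ^ (2 * b + 1) := Nat.le_self_pow (by omega) _
  have h2 : (a + 1) ^ (2 * b + 1 + 1) = (a + 1) ^ (2 * b + 1) * a + (a + 1) ^ (2 * b + 1) := by ring
  rw [h2]
  have h3 : ((a + 1) ^ (2 * b + 1)).succ * a = (a + 1) ^ (2 * b + 1) * a + a := by rw [Nat.succ_mul]
  rw [h3]
  omega

theorem pow1 {q m : ℕ} (hm : 1 ≤ m) : q ^ m + 1 ≤ (q + 1) ^ m := by
  induction m, hm using Nat.le_induction with
  | base => simp
  | succ m hm ih =>
    calc q ^ (m + 1) + 1 ≤ (q ^ m + 1) * (q + 1) := by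
          rw [pow_succ]
          nlinarith [Nat.zero_le (q ^ m), Nat.zero_le q]
      _ ≤ (q + 1) ^ m * (q + 1) := Nat.mul_le_mul_right _ ih
      _ = (q + 1) ^ (m + 1) := (pow_succ _ _).symm

theorem pow2 {q m : ℕ} (hm : 2 ≤ m) : (q ^ m + 1) ^ 2 ≤ (q ^ 2 + 1) ^ m := by
  induction m, hm using Nat.le_induction with
  | base => exact le_rfl
  | succ m hm ih =>
    calc (q ^ (m + 1) + 1) ^ 2 ≤ (q ^ m + 1) ^ 2 * (q ^ 2 + 1) := by
          rw [pow_succ q m]
          generalize q ^ m = x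
          have h1 : (x * q + 1) ^ 2 = x * x * (q * q) + 2 * (x * q) + 1 := by ring
          have h2 : (x + 1) ^ 2 * (q ^ 2 + 1) = x * x * (q * q) + 2 * (x * (q * q)) + q * q + (x + 1) ^ 2 := by ring
          have h3 : x * q ≤ x * (q * q) := Nat.mul_le_mul_left _ (Nat.le_mul_self q)
          have h4 : 1 ≤ (x + 1) ^ 2 := Nat.one_le_pow _ _ (by omega)
          omega
      _ ≤ (q ^ 2 + 1) ^ m * (q ^ 2 + 1) := Nat.mul_le_mul_right _ ih
      _ = (q ^ 2 + 1) ^ (m + 1) := (pow_succ _ _).symm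

theorem prod1 {q : ℕ} : ∀ l : List ℕ, (∀ m ∈ l, 1 ≤ m) → (l.map fun m => q ^ m + 1).prod ≤ (q + 1) ^ l.sum
  | [], _ => by simp
  | a :: l, h => by
    rw [List.map_cons, List.prod_cons, List.sum_cons, pow_add]
    exact Nat.mul_le_mul (pow1 (h a (by simp))) (prod1 l fun m hm => h m (List.mem_cons_of_mem _ hm))

theorem prod2 {q : ℕ} : ∀ l : List ℕ, (∀ m ∈ l, 2 ≤ m) → (l.map fun m => q ^ m + 1).prod ^ 2 ≤ (q ^ 2 + 1) ^ l.sum
  | [], _ => by simp
  | a :: l, h => by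
    rw [List.map_cons, List.prod_cons, List.sum_cons, pow_add, mul_pow]
    exact Nat.mul_le_mul (pow2 (h a (by simp))) (prod2 l fun m hm => h m (List.mem_cons_of_mem _ hm))

theorem sq_le_three {r : ℕ} (hr : 3 ≤ r) : r ^ 2 ≤ 3 ^ (r - 1) := by
  induction r, hr using Nat.le_induction with
  | base => decide
  | succ r hr ih =>
    obtain ⟨s, rfl⟩ : ∃ s, r = s + 1 := ⟨r - 1, by omega⟩
    rw [Nat.add_sub_cancel] at ih ⊢
    rw [pow_succ 3 s]
    nlinarith

theorem fact_bound {r w k : ℕ} (hr : r.Prime) (hr3 : 3 ≤ r) (hw : r ^ w ∣ k.factorial) : (r ^ w) ^ 2 ≤ 3 ^ (k - 1) := by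
  have := Fact.mk hr
  have h1 : w ≤ padicValNat r k.factorial := (padicValNat_dvd_iff_le (Nat.factorial_ne_zero k)).1 hw
  have h2 := sub_one_mul_padicValNat_factorial (p := r) k
  have h3 : (r - 1) * w ≤ k - 1 := by
    have h4 : (r - 1) * w ≤ (r - 1) * padicValNat r k.factorial := Nat.mul_le_mul_left _ h1
    rcases Nat.eq_zero_or_pos k with rfl | hk
    · simp only [Nat.factorial_zero, Nat.digits_zero, List.sum_nil] at h2 h4
      omega
    · have h5 : 1 ≤ (r.digits k).sum := by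
        by_contra h0
        have h6 : (r.digits k).sum = 0 := by omega
        have h7 : ∀ d ∈ r.digits k, d = 0 := fun d hd => by
          have := List.single_le_sum (fun _ _ => Nat.zero_le _) d hd
          omega
        have h8 := Nat.getLast_digit_ne_zero r (show k ≠ 0 by omega)
        exact h8 (h7 _ (List.getLast_mem _))
      omega
  calc (r ^ w) ^ 2 = (r ^ 2) ^ w := by rw [← pow_mul, ← pow_mul, mul_comm]
    _ ≤ (3 ^ (r - 1)) ^ w := Nat.pow_le_pow_left (sq_le_three hr3) _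
    _ = 3 ^ ((r - 1) * w) := (pow_mul _ _ _).symm
    _ ≤ 3 ^ (k - 1) := Nat.pow_le_pow_right (by norm_num) h3

theorem two_mul_gcd {q p e : ℕ} (hq : q = p ^ e) (hp : p.Prime) (he : 1 ≤ e) (hq4 : 4 ≤ q) : 2 * (Nat.gcd 2 (q - 1) * e) ≤ q := by
  rcases hp.eq_two_or_odd' with rfl | hodd
  · have hg : Nat.gcd 2 (q - 1) = 1 := by
      have h1 : Odd (q - 1) := by
        have : Even q := by rw [hq]; exact (Nat.even_pow.2 ⟨even_two, by omega⟩)
        exact Nat.Even.sub_odd (by omega) this odd_one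
      exact (Nat.coprime_two_left.2 h1)
    rw [hg, one_mul, hq]
    have h2 : ∀ e : ℕ, 1 ≤ e → 2 * e ≤ 2 ^ e := by
      intro e he
      induction e, he using Nat.le_induction with
      | base => norm_num
      | succ e he ih => rw [pow_succ]; omega
    exact h2 e he
  · have hg : Nat.gcd 2 (q - 1) ≤ 2 := Nat.gcd_le_left _ (by norm_num)
    have h3 : 3 ≤ p := by
      have := hp.two_le
      rcases hodd with ⟨c, hc⟩
      omega
    have h4 : 4 * e ≤ q := by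
      rcases Nat.lt_or_ge e 2 with h | h
      · have : e = 1 := by omega
        rw [this]
        omega
      · rw [hq]
        refine le_trans ?_ (Nat.pow_le_pow_left h3 e)
        clear hq hg
        induction e, h using Nat.le_induction with
        | base => norm_num
        | succ e he' ih => rw [pow_succ]; have := ih (by omega); omega
    calc 2 * (Nat.gcd 2 (q - 1) * e) ≤ 2 * (2 * e) := Nat.mul_le_mul_left _ (Nat.mul_le_mul_right _ hg)
      _ = 4 * e := by ring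
      _ ≤ q := h4

/-- `q ≥ 4` -/
theorem big {q n : ℕ} (hq : 4 ≤ q) (hn : 3 ≤ n) : (q + 1) ^ (2 * n) * 3 ^ (n - 1) * q ^ 2 ≤ 4 * (q ^ (2 * n - 1)) ^ 2 := by
  induction n, hn using Nat.le_induction with
  | base =>
    have h1 : 4 * (q + 1) ≤ 5 * q := by omega
    have h2 : (4 * (q + 1)) ^ 6 ≤ (5 * q) ^ 6 := Nat.pow_le_pow_left h1 6
    have h3 : 9 * (5 * q) ^ 6 ≤ 4 ^ 6 * (4 * q ^ 8) := by
      have h4 : (16 : ℕ) ≤ q ^ 2 := by nlinarith
      calc 9 * (5 * q) ^ 6 = 140625 * q ^ 6 := by ring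
        _ ≤ 4 ^ 6 * (4 * (16 * q ^ 6)) := by nlinarith [Nat.zero_le (q ^ 6)]
        _ ≤ 4 ^ 6 * (4 * (q ^ 2 * q ^ 6)) := by
          exact Nat.mul_le_mul_left _ (Nat.mul_le_mul_left _ (Nat.mul_le_mul_right _ h4))
        _ = 4 ^ 6 * (4 * q ^ 8) := by ring
    have h5 : 9 * (q + 1) ^ 6 ≤ 4 * q ^ 8 := by
      have h6 : 4 ^ 6 * (9 * (q + 1) ^ 6) ≤ 4 ^ 6 * (4 * q ^ 8) := by
        calc 4 ^ 6 * (9 * (q + 1) ^ 6) = 9 * (4 * (q + 1)) ^ 6 := by ring
          _ ≤ 9 * (5 * q) ^ 6 := Nat.mul_le_mul_left _ h2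
          _ ≤ _ := h3
      exact Nat.le_of_mul_le_mul_left h6 (by norm_num)
    calc (q + 1) ^ (2 * 3) * 3 ^ (3 - 1) * q ^ 2 = 9 * (q + 1) ^ 6 * q ^ 2 := by
          rw [show 2 * 3 = 6 by rfl, show 3 ^ (3 - 1) = 9 by rfl]; ring
      _ ≤ 4 * q ^ 8 * q ^ 2 := Nat.mul_le_mul_right _ h5
      _ = 4 * (q ^ (2 * 3 - 1)) ^ 2 := by rw [show 2 * 3 - 1 = 5 by rfl]; ring
  | succ n hn ih =>
    obtain ⟨b, rfl⟩ : ∃ b, n = b + 1 := ⟨n - 1, by omega⟩
    have h1 : 3 * (q + 1) ^ 2 ≤ q ^ 4 := by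
      have h2 : q + 1 ≤ 2 * q := by omega
      have h3 : (q + 1) ^ 2 ≤ (2 * q) ^ 2 := Nat.pow_le_pow_left h2 2
      have h4 : 12 ≤ q ^ 2 := by nlinarith
      calc 3 * (q + 1) ^ 2 ≤ 3 * (2 * q) ^ 2 := Nat.mul_le_mul_left _ h3
        _ = 12 * q ^ 2 := by ring
        _ ≤ q ^ 2 * q ^ 2 := Nat.mul_le_mul_right _ h4
        _ = q ^ 4 := by ring
    rw [show b + 1 + 1 - 1 = b + 1 by omega, show 2 * (b + 1 + 1) - 1 = 2 * b + 3 by omega]
    rw [show b + 1 - 1 = b by omega, show 2 * (b + 1) - 1 = 2 * b + 1 by omega] at ih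
    calc (q + 1) ^ (2 * (b + 1 + 1)) * 3 ^ (b + 1) * q ^ 2 = (q + 1) ^ (2 * (b + 1)) * 3 ^ b * q ^ 2 * (3 * (q + 1) ^ 2) := by ring
      _ ≤ 4 * (q ^ (2 * b + 1)) ^ 2 * q ^ 4 := Nat.mul_le_mul ih h1
      _ = 4 * (q ^ (2 * b + 3)) ^ 2 := by ring

/-- `q = 3` -/
theorem three {n : ℕ} (hn : 3 ≤ n) : 10 ^ n * 3 ^ (n - 1) * 4 ≤ (3 ^ (2 * n - 1)) ^ 2 := by
  induction n, hn using Nat.le_induction with
  | base => norm_num
  | succ n hn ih =>
    obtain ⟨b, rfl⟩ : ∃ b, n = b + 1 := ⟨n - 1, by omega⟩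
    rw [show b + 1 + 1 - 1 = b + 1 by omega, show 2 * (b + 1 + 1) - 1 = 2 * b + 3 by omega]
    rw [show b + 1 - 1 = b by omega, show 2 * (b + 1) - 1 = 2 * b + 1 by omega] at ih
    calc 10 ^ (b + 1 + 1) * 3 ^ (b + 1) * 4 = 10 ^ (b + 1) * 3 ^ b * 4 * 30 := by ring
      _ ≤ (3 ^ (2 * b + 1)) ^ 2 * 81 := Nat.mul_le_mul ih (by norm_num)
      _ = (3 ^ (2 * b + 3)) ^ 2 := by ring

/-- `q = 2`, `n ≥ 6` -/
theorem two {n : ℕ} (hn : 6 ≤ n) : 5 ^ n * 3 ^ (n - 1) < (2 ^ (n - 1) * (2 ^ n - 1)) ^ 2 := by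
  induction n, hn using Nat.le_induction with
  | base => norm_num
  | succ n hn ih =>
    obtain ⟨b, rfl⟩ : ∃ b, n = b + 1 := ⟨n - 1, by omega⟩
    rw [show b + 1 + 1 - 1 = b + 1 by omega]
    rw [show b + 1 - 1 = b by omega] at ih
    have h1 : 1 ≤ 2 ^ (b + 1) := Nat.one_le_two_pow
    have h2 : 2 * (2 ^ (b + 1) - 1) ≤ 2 ^ (b + 1 + 1) - 1 := by
      rw [pow_succ 2 (b + 1)]
      omega
    calc 5 ^ (b + 1 + 1) * 3 ^ (b + 1) = 5 ^ (b + 1) * 3 ^ b * 15 := by ring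
      _ < (2 ^ b * (2 ^ (b + 1) - 1)) ^ 2 * 16 := Nat.mul_lt_mul_of_lt_of_le ih (by norm_num) (by norm_num)
      _ = (2 ^ (b + 1) * (2 * (2 ^ (b + 1) - 1))) ^ 2 := by rw [pow_succ 2 b]; ring
      _ ≤ (2 ^ (b + 1) * (2 ^ (b + 1 + 1) - 1)) ^ 2 := Nat.pow_le_pow_left (Nat.mul_le_mul_left _ h2) 2

/-- Task N -/
theorem num {q p e n r w k : ℕ} {l : List ℕ} (hq : q = p ^ e) (hp : p.Prime) (he : 1 ≤ e) (hn : 3 ≤ n)
    (hl : l.sum = n) (hl1 : ∀ m ∈ l, 1 ≤ m) (hl2 : q ≤ 3 → ∀ m ∈ l, 2 ≤ m) (hr : r.Prime) (hr3 : 3 ≤ r)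
    (hk : k ≤ n) (hw : r ^ w ∣ k.factorial) :
    (3 ≤ q → (l.map fun m => q ^ m + 1).prod * r ^ w * (Nat.gcd 2 (q - 1) * e) < (q ^ (2 * n) - 1) / (q - 1)) ∧
      (q = 2 → (l.map fun m => q ^ m + 1).prod * r ^ w < 2 ^ (n - 1) * (2 ^ n - 1)) := by
  have hrw : (r ^ w) ^ 2 ≤ 3 ^ (n - 1) := (fact_bound hr hr3 hw).trans (Nat.pow_le_pow_right (by norm_num) (by omega))
  constructor
  · intro hq3
    refine lt_of_le_of_lt ?_ (geo (by omega) (by omega))
    rcases Nat.lt_or_ge q 4 with h | h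
    · have h3 : q = 3 := by omega
      have he1 : e = 1 := by
        have hpe : p ^ e = 3 := hq.symm.trans h3
        have h4 : p ∣ 3 := hpe ▸ dvd_pow_self p (by omega)
        have h5 : p = 3 := (Nat.prime_dvd_prime_iff_eq hp Nat.prime_three).1 h4
        rw [h5] at hpe
        exact Nat.pow_right_injective (show 2 ≤ 3 by norm_num) (hpe.trans (pow_one 3).symm)
      have hP := prod2 (q := q) l (hl2 (by omega))
      rw [hl] at hP
      subst h3
      rw [he1]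
      have h6 := three hn
      refine (Nat.pow_le_pow_iff_left (n := 2) two_ne_zero).1 ?_
      calc ((l.map fun m => 3 ^ m + 1).prod * r ^ w * (Nat.gcd 2 (3 - 1) * 1)) ^ 2
          = (l.map fun m => 3 ^ m + 1).prod ^ 2 * (r ^ w) ^ 2 * 4 := by norm_num; ring
        _ ≤ (3 ^ 2 + 1) ^ n * 3 ^ (n - 1) * 4 := Nat.mul_le_mul_right _ (Nat.mul_le_mul hP hrw)
        _ = 10 ^ n * 3 ^ (n - 1) * 4 := by norm_num
        _ ≤ (3 ^ (2 * n - 1)) ^ 2 := h6
    · have hP := prod1 (q := q) l hl1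
      rw [hl] at hP
      have hg := two_mul_gcd hq hp he h
      have h6 := big h hn
      set g := Nat.gcd 2 (q - 1) * e
      refine (Nat.pow_le_pow_iff_left (n := 2) two_ne_zero).1 ?_
      refine Nat.le_of_mul_le_mul_left ?_ (show 0 < 4 by norm_num)
      calc 4 * ((l.map fun m => q ^ m + 1).prod * r ^ w * g) ^ 2
          = (l.map fun m => q ^ m + 1).prod ^ 2 * (r ^ w) ^ 2 * (2 * g) ^ 2 := by ring
        _ ≤ ((q + 1) ^ n) ^ 2 * 3 ^ (n - 1) * q ^ 2 :=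
          Nat.mul_le_mul (Nat.mul_le_mul (Nat.pow_le_pow_left hP 2) hrw) (Nat.pow_le_pow_left hg 2)
        _ = (q + 1) ^ (2 * n) * 3 ^ (n - 1) * q ^ 2 := by rw [← pow_mul, mul_comm n 2]
        _ ≤ _ := h6
  · intro h2
    have hP := prod2 (q := q) l (hl2 (by omega))
    rw [hl] at hP
    subst h2
    have hodd : ¬ 2 ∣ r ^ w := by
      intro h
      have := (Nat.prime_dvd_prime_iff_eq Nat.prime_two hr).1 (Nat.prime_two.dvd_of_dvd_pow h)
      omega
    rcases Nat.lt_or_ge n 6 with h | h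
    · interval_cases n
      · -- `n = 3`
        have hrw3 : r ^ w ≤ 3 := by
          have : (r ^ w) ^ 2 ≤ 3 ^ 2 := hrw
          exact (Nat.pow_le_pow_iff_left (n := 2) two_ne_zero).1 this
        have hl3 : l = [3] := by
          rcases l with _ | ⟨a, _ | ⟨b, t⟩⟩
          · simp at hl
          · simp only [List.sum_cons, List.sum_nil, add_zero] at hl
            rw [hl]
          · have h1 := hl2 (by norm_num) a (by simp)
            have h2 := hl2 (by norm_num) b (by simp)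
            simp only [List.sum_cons] at hl
            omega
        rw [hl3]
        norm_num
        omega
      · have hP' : (l.map fun m => 2 ^ m + 1).prod ≤ 25 := by
          refine (Nat.pow_le_pow_iff_left (n := 2) two_ne_zero).1 (hP.trans ?_)
          norm_num
        have h5 : r ^ w ≤ 5 := by
          by_contra h5
          have h6 : 6 ^ 2 ≤ (r ^ w) ^ 2 := Nat.pow_le_pow_left (by omega) 2
          norm_num at h6 hrw
          omega
        have h24 : r ^ w ∣ 24 := hw.trans (Nat.factorial_dvd_factorial hk)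
        have h3 : r ^ w ≤ 3 := by
          generalize r ^ w = x at *
          interval_cases x <;> omega
        calc (l.map fun m => 2 ^ m + 1).prod * r ^ w ≤ 25 * 3 := Nat.mul_le_mul hP' h3
          _ < _ := by norm_num
      · have hP' : (l.map fun m => 2 ^ m + 1).prod ≤ 55 := by
          by_contra h5
          have h6 : 56 ^ 2 ≤ (l.map fun m => 2 ^ m + 1).prod ^ 2 := Nat.pow_le_pow_left (by omega) 2
          norm_num at h6 hP
          omega
        have h5 : r ^ w ≤ 9 := by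
          refine (Nat.pow_le_pow_iff_left (n := 2) two_ne_zero).1 (hrw.trans ?_)
          norm_num
        calc (l.map fun m => 2 ^ m + 1).prod * r ^ w ≤ 55 * 9 := Nat.mul_le_mul hP' h5
          _ < _ := by norm_num
    · refine (Nat.pow_lt_pow_iff_left (n := 2) two_ne_zero).1 ?_
      calc ((l.map fun m => 2 ^ m + 1).prod * r ^ w) ^ 2
          = (l.map fun m => 2 ^ m + 1).prod ^ 2 * (r ^ w) ^ 2 := by ring
        _ ≤ (2 ^ 2 + 1) ^ n * 3 ^ (n - 1) := Nat.mul_le_mul hP hrw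
        _ = 5 ^ n * 3 ^ (n - 1) := by norm_num
        _ < _ := two h

end Cfsg.Agent.H491.DP
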